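import Mathlib
import Cfsg.Agent.Lib.XPrim.Base

/-!
The point stabiliser of an insoluble extremely primitive affine group is almost simple.
-/

set_option autoImplicit false

namespace CfsgLib.XPrim

open MulAction Subgroup Cfsg CfsgLib CfsgLib.Perm
open scoped Pointwise

variable {H V : Type*} [Group H] [AddCommGroup V] [DistribMulAction H V]

/-- The span of the orbit of `v` under `C`. -/
def U (C : Subgroup H) (v : V) : AddSubgroup V := AddSubgroup.closure ((fun c : H => c • v) '' C)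

theorem mem_U {C : Subgroup H} {c : H} (hc : c ∈ C) (v : V) : c • v ∈ U C v :=
  AddSubgroup.subset_closure ⟨c, hc, rfl⟩

theorem self_mem_U (C : Subgroup H) (v : V) : v ∈ U C v := by
  simpa using mem_U (one_mem C) v

theorem U_le {C : Subgroup H} {v : V} {W : AddSubgroup V} (h : ∀ c ∈ C, c • v ∈ W) : U C v ≤ W :=
  (AddSubgroup.closure_le _).2 (by rintro _ ⟨c, hc, rfl⟩; exact h c hc)

theorem U_smul {C : Subgroup H} {g : H} (hg : g ∈ normalizer (C : Set H)) (v : V) :
    U C (g • v) = g • U C v := by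
  have key : ∀ (g : H) (v : V), g ∈ normalizer (C : Set H) → U C (g • v) ≤ g • U C v :=
    fun g v hg => U_le fun c hc => by
      rw [AddSubgroup.mem_pointwise_smul_iff_inv_smul_mem, ← mul_smul, ← mul_smul]
      exact mem_U ((mem_normalizer_iff''.1 hg c).1 hc) v
  refine le_antisymm (key g v hg) ?_
  have := key g⁻¹ (g • v) (inv_mem hg)
  rwa [inv_smul_smul, ← AddSubgroup.pointwise_smul_le_pointwise_smul_iff (a := g),
    smul_inv_smul] at this

theorem U_smul_of_mem {C : Subgroup H} {c : H} (hc : c ∈ C) (v : V) : U C (c • v) = U C v := by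
  have key : ∀ (c : H) (v : V), c ∈ C → U C (c • v) ≤ U C v := fun c v hc => U_le fun d hd => by
    rw [← mul_smul]
    exact mem_U (mul_mem hd hc) v
  refine le_antisymm (key c v hc) ?_
  have := key c⁻¹ (c • v) (inv_mem hc)
  rwa [inv_smul_smul] at this

theorem smul_mem_U {C : Subgroup H} {c : H} (hc : c ∈ C) {v w : V} (hw : w ∈ U C v) :
    c • w ∈ U C v := by
  rw [← U_smul_of_mem hc, U_smul (le_normalizer hc)]
  exact AddSubgroup.smul_mem_pointwise_smul _ _ _ hw

theorem U_le_U {C : Subgroup H} {v w : V} (hw : w ∈ U C v) : U C w ≤ U C v :=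
  U_le fun _ hc => smul_mem_U hc hw

theorem smul_eq_of_fix {a : H} {W : AddSubgroup V} (h : ∀ y ∈ W, a • y = y) : a • W = W :=
  AddSubgroup.ext fun y => ⟨by
    rintro ⟨y, hy, rfl⟩
    change a • y ∈ W
    rwa [h y hy], fun hy => ⟨y, hy, h y hy⟩⟩

/-- A minimal non-zero `C`-invariant subgroup. -/
def Min (C : Subgroup H) (W : AddSubgroup V) : Prop :=
  W ≠ ⊥ ∧ ∀ w ∈ W, w ≠ 0 → U C w = W

theorem Min.smul {C : Subgroup H} {W : AddSubgroup V} (h : Min C W) {g : H}
    (hg : g ∈ normalizer (C : Set H)) : Min C (g • W) := by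
  refine ⟨fun e => h.1 (smul_left_cancel g (e.trans (AddSubgroup.map_bot _).symm)), ?_⟩
  rintro _ ⟨w, hw, rfl⟩ h0
  exact (U_smul hg w).trans (congrArg _ (h.2 w hw (by rintro rfl; exact h0 (map_zero _))))

theorem Min.smul_mem {C : Subgroup H} {W : AddSubgroup V} (h : Min C W) {c : H} (hc : c ∈ C) {w : V}
    (hw : w ∈ W) : c • w ∈ W := by
  by_cases h0 : w = 0
  · simp [h0]
  · rw [← h.2 w hw h0]
    exact mem_U hc w

theorem Min.eq_zero {C : Subgroup H} {W W' : AddSubgroup V} (h : Min C W) (h' : Min C W')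
    (hne : W ≠ W') {w : V} (hw : w ∈ W) (hw' : w ∈ W') : w = 0 := by
  by_contra h0
  exact hne ((h.2 w hw h0).symm.trans (h'.2 w hw' h0))

theorem exists_min [Finite V] (C : Subgroup H) {Y : AddSubgroup V} (hY : Y ≠ ⊥)
    (hC : ∀ c ∈ C, ∀ y ∈ Y, c • y ∈ Y) : ∃ D, Min C D ∧ D ≤ Y := by
  obtain ⟨⟨v, hv⟩, hv0⟩ := AddSubgroup.ne_bot_iff_exists_ne_zero.1 hY
  obtain ⟨_, ⟨v, hv, hv0, rfl⟩, hmin⟩ := (wellFounded_lt (α := AddSubgroup V)).has_min
    {D | ∃ v ∈ Y, v ≠ 0 ∧ U C v = D} ⟨_, v, hv, fun h => hv0 (Subtype.ext h), rfl⟩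
  have hle : U C v ≤ Y := U_le fun c hc => hC c hc v hv
  refine ⟨_, ⟨fun h => hv0 ?_, fun w hw h0 => ?_⟩, hle⟩
  · exact AddSubgroup.mem_bot.1 (h ▸ self_mem_U C v)
  · by_contra hne
    exact hmin _ ⟨w, hle hw, h0, rfl⟩ (lt_of_le_of_ne (U_le_U hw) hne)

namespace XP

variable [FaithfulSMul H V] (x : XP H V)
include x

theorem almost_simple [Finite H] [Finite V] (hns : ¬ Group.IsSolvable H) :
    ∃ T : Subgroup H, T.Normal ∧ IsSimpleGroup T ∧ ¬ IsMulCommutative T ∧
      centralizer (T : Set H) = ⊥ := by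
  have hnt : Nontrivial H := by
    by_contra h
    rw [not_nontrivial_iff_subsingleton] at h
    exact hns inferInstance
  obtain ⟨M, hM, hM0, -, hmin⟩ := Core.exists_minimal_normal_le (K := (⊤ : Subgroup H)) top_ne_bot
  obtain ⟨T, hTM, hMT, hTs, hTc, h2, h3⟩ := exists_simple_factor M hM0 hmin
    fun h => hns (x.solvable_of_comm M hM0)
  suffices hTn : T.Normal by
    refine ⟨T, hTn, hTs, hTc, ?_⟩
    by_contra h
    exact hTc ⟨⟨fun a b => Subtype.ext (x.comm_of_le_centralizer _ h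
      (fun c hc => (mem_centralizer_iff.1 hc a a.2).symm) fun c hc => (mem_centralizer_iff.1 hc b b.2).symm)⟩⟩
  by_contra hTn
  obtain ⟨g₀, hg₀⟩ : ∃ g₀ : H, T.map (MulAut.conj g₀).toMonoidHom ≤ centralizer (T : Set H) := by
    by_contra hall
    push Not at hall
    exact hTn ⟨fun t ht g => ((h2 g).resolve_right (hall g)).le ⟨t, ht, rfl⟩⟩
  set C := centralizer (T : Set H) with hC
  have hnc : normalizer (T : Set H) ≤ normalizer (C : Set H) :=
    Core.normalizer_le_normalizer_centralizer (T : Set H)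
  have hTC : T ≤ normalizer (C : Set H) := le_normalizer.trans hnc
  have hirr : ∀ W : AddSubgroup V, W ≠ ⊥ → (∀ t ∈ T, ∀ w ∈ W, t • w ∈ W) →
      (∀ c ∈ C, ∀ w ∈ W, c • w ∈ W) → W = ⊤ := fun W hW hT hC => by
    refine (x.irr M hM hM0 W fun n hn w hw => ?_).resolve_left hW
    have h1 : n ∈ ((T ⊔ C : Subgroup H) : Set H) :=
      h3 _ (fun g => (h2 g).elim (fun h => h.le.trans le_sup_left) fun h => h.trans le_sup_right) hn
    rw [coe_mul_of_left_le_normalizer_right _ _ hTC] at h1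
    obtain ⟨t, ht, c, hc, rfl⟩ := h1
    rw [mul_smul]
    exact hT t ht _ (hC c hc w hw)
  have dich : ∀ v : V, v ≠ 0 → U C v ≠ ⊤ → ∀ t ∈ T, t • U C v = U C v → ∀ w ∈ U C v, t • w = w := by
    intro v hv hU t ht htU
    let S : Subgroup H :=
      { carrier := {h | ∀ g : H, U C (g • h • v) = U C (g • v)}
        one_mem' := fun g => by rw [one_smul]
        mul_mem' := fun {a b} ha hb g => by
          rw [mul_smul, ← mul_smul g, hb, mul_smul, ha]
        inv_mem' := fun {a} ha g => by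
          rw [← mul_smul, ← ha, mul_smul, inv_smul_smul] }
    have hle : stabilizer H v ≤ S := fun h hh g => by rw [show h • v = v from hh]
    have hS : S = stabilizer H v := by
      by_contra hne
      have h1 := (x.coatom v hv).2 _ (lt_of_le_of_ne hle (Ne.symm hne))
      refine hU (hirr _ (fun h => hv (AddSubgroup.mem_bot.1 (h ▸ self_mem_U C v))) (fun s hs w hw => ?_)
        fun c hc w hw => smul_mem_U hc hw)
      have h4 := (h1 ▸ mem_top s : s ∈ S) 1
      rw [one_smul, one_smul, U_smul (hTC hs)] at h4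
      rw [← h4]
      exact AddSubgroup.smul_mem_pointwise_smul _ _ _ hw
    have htv : t • v = v := by
      refine (hS ▸ fun g => ?_ : t ∈ stabilizer H v)
      rcases h2 g with h | h
      · have hg : g ∈ normalizer (C : Set H) := hnc (mem_normalizer_fintype fun n hn => h.le ⟨n, hn, rfl⟩)
        rw [U_smul hg, U_smul hg, U_smul (hTC ht), htU]
      · rw [show g • t • v = (g * t * g⁻¹) • g • v by simp [mul_smul]]
        exact U_smul_of_mem (h ⟨t, ht, rfl⟩) _
    intro w hw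
    refine U_le (W := fix V {t}) ?_ hw t rfl
    rintro c hc _ rfl
    rw [← mul_smul, mem_centralizer_iff.1 hc _ ht, mul_smul, htv]
  have hfix : ∀ W : AddSubgroup V, Min C W → W ≠ ⊤ → ∀ t ∈ T, t • W = W → ∀ w ∈ W, t • w = w := by
    intro W hW hW' t ht htW w hw
    by_cases h0 : w = 0
    · simp [h0]
    · rw [← hW.2 w hw h0] at hW' htW
      exact dich w h0 hW' t ht htW w (self_mem_U C w)
  have gen : ∀ W : AddSubgroup V, Min C W → ∀ s : H, (∀ t ∈ T, ∀ w ∈ W, s • t • w = t • w) → s = 1 := by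
    intro W hW s hs
    let Z : AddSubgroup V :=
      { carrier := {v | ∀ t ∈ T, ∀ c ∈ C, s • t • c • v = t • c • v}
        zero_mem' := fun t _ c _ => by simp
        add_mem' := fun ha hb t ht c hc => by simp only [smul_add, ha t ht c hc, hb t ht c hc]
        neg_mem' := fun ha t ht c hc => by simp only [smul_neg, ha t ht c hc] }
    have hZ : Z = ⊤ := by
      refine hirr Z (fun h => hW.1 (eq_bot_iff.2 (h ▸ fun w hw t ht c hc =>
        hs t ht _ (hW.smul_mem hc hw)))) (fun u hu w hw t ht c hc => ?_) fun d hd w hw t ht c hc => ?_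
      · have := hw (t * u) (mul_mem ht hu) c hc
        rwa [mul_smul, ← mul_smul u, mem_centralizer_iff.1 hc u hu, mul_smul] at this
      · have := hw t ht (c * d) (mul_mem hc hd)
        rwa [mul_smul] at this
    refine FaithfulSMul.eq_of_smul_eq_smul (α := V) fun v => ?_
    simpa using (hZ ▸ AddSubgroup.mem_top v : v ∈ Z) 1 (one_mem _) 1 (one_mem _)
  have h22 := x.char_two hns
  obtain ⟨a, ha, ha2⟩ := Core.exists_mem_orderOf_eq_of_dvd_card Nat.prime_two
    (FT.even_card_of_not_solvable (G := T) fun h =>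
      hTc ⟨⟨IsSimpleGroup.comm_iff_isSolvable.2 h⟩⟩).two_dvd
  have ha1 := DerCls.ne_one_of_orderOf Nat.prime_two ha2
  have haa : a * a = 1 := by rw [← pow_two, ← ha2, pow_orderOf_eq_one]
  have hinv : ∀ (s : H) (w : V), s * s = 1 → s • w ≠ w → s • w + w ≠ 0 ∧ s • (s • w + w) = s • w + w :=
    fun s w hs h => ⟨fun e => h (add_right_cancel (e.trans (h22 w).symm)), by
      rw [smul_add, ← mul_smul, hs, one_smul, add_comm]⟩
  obtain ⟨u, hu⟩ : ∃ u : V, a • u ≠ u := by
    by_contra h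
    push Not at h
    exact ha1 (FaithfulSMul.eq_of_smul_eq_smul (α := V) fun u => by rw [h, one_smul])
  obtain ⟨D, hD, hDa⟩ := exists_min C (Y := fix V {a}) (fun h => (hinv a u haa hu).1
      (AddSubgroup.mem_bot.1 (h ▸ by rintro _ rfl; exact (hinv _ u haa hu).2))) (by
    rintro c hc y hy _ rfl
    rw [← mul_smul, mem_centralizer_iff.1 hc _ ha, mul_smul, hy _ rfl])
  have hDt : ∀ t : H, t • D ≠ ⊤ := fun t h => hu (hDa (by
    have : t • u ∈ t • D := by rw [h]; trivial
    exact AddSubgroup.smul_mem_pointwise_smul_iff.1 this) a rfl)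
  obtain ⟨t₀, ht₀, hW⟩ : ∃ t₀ ∈ T, a • t₀ • D ≠ t₀ • D := by
    by_contra hall
    push Not at hall
    exact ha1 (gen D hD a fun t ht w hw => hfix _ (hD.smul (hTC ht)) (hDt t) a ha (hall t ht) _
      (AddSubgroup.smul_mem_pointwise_smul _ _ _ hw))
  have hWm := hD.smul (hTC ht₀)
  have hWa := hWm.smul (hTC ha)
  have htop : t₀ • D ⊔ a • t₀ • D = ⊤ := by
    generalize t₀ • D = W at hW hWm hWa
    have hb : g₀ * a * g₀⁻¹ ∈ C := hg₀ ⟨a, ha, rfl⟩
    have hbb : g₀ * a * g₀⁻¹ * (g₀ * a * g₀⁻¹) = 1 := by rw [conj_mul, haa]; simp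
    have hb1 : g₀ * a * g₀⁻¹ ≠ 1 := fun h => ha1 (conj_eq_one_iff.1 h)
    generalize g₀ * a * g₀⁻¹ = b at hb hbb hb1
    obtain ⟨w, hw, hbw⟩ : ∃ w ∈ W, b • w ≠ w := by
      by_contra hall
      push Not at hall
      exact hb1 (gen W hWm b fun t ht w hw => by
        rw [← mul_smul, ← mem_centralizer_iff.1 hb t ht, mul_smul, hall w hw])
    obtain ⟨h4, h5⟩ := hinv b w hbb hbw
    have h6 : b • w + w ∈ W := add_mem (hWm.smul_mem hb hw) hw
    have h7 : a • w ∈ a • W := AddSubgroup.smul_mem_pointwise_smul _ _ _ hw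
    have hv0 : b • w + w + a • w ≠ 0 := fun h => h4 (hWm.eq_zero hWa hW.symm h6 (by
      rw [eq_neg_of_add_eq_zero_left h]; exact neg_mem h7))
    have h8 : a • W ≤ U C (b • w + w + a • w) := by
      rw [← hWa.2 _ (AddSubgroup.smul_mem_pointwise_smul _ a _ h6) ((smul_ne_zero_iff_ne a).2 h4)]
      apply U_le_U
      convert add_mem (mem_U hb (b • w + w + a • w)) (self_mem_U C _) using 1
      rw [smul_add b _ (a • w), h5, ← mul_smul b, ← mem_centralizer_iff.1 hb a ha, mul_smul, smul_add,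
        add_add_add_comm, h22, zero_add]
    have h9 : W ≤ U C (b • w + w + a • w) := by
      rw [← hWm.2 _ h6 h4]
      apply U_le_U
      simpa using sub_mem (self_mem_U C (b • w + w + a • w)) (h8 h7)
    have h10 : U C (b • w + w + a • w) = W ⊔ a • W := le_antisymm (U_le fun c hc => by
      rw [smul_add c _ (a • w)]
      exact AddSubgroup.add_mem_sup (hWm.smul_mem hc h6) (hWa.smul_mem hc h7)) (sup_le h9 h8)
    by_contra hne
    have h11 := dich _ hv0 (h10 ▸ hne) a ha (by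
      rw [h10, show a • (W ⊔ a • W) = a • W ⊔ a • a • W from AddSubgroup.map_sup _ _ _, ← mul_smul, haa,
        one_smul, sup_comm])
    exact hW (smul_eq_of_fix fun y hy => h11 y (h9 hy))
  have hcard : Nat.card V ≤ Nat.card (D × D) := by
    refine Nat.card_le_card_of_surjective (fun y : D × D => t₀ • (y.1 : V) + a • t₀ • (y.2 : V))
      fun v => ?_
    obtain ⟨_, ⟨y, hy, rfl⟩, _, ⟨_, ⟨z, hz, rfl⟩, rfl⟩, rfl⟩ :=
      AddSubgroup.mem_sup.1 (htop ▸ AddSubgroup.mem_top v : v ∈ t₀ • D ⊔ a • t₀ • D)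
    exact ⟨(⟨y, hy⟩, ⟨z, hz⟩), rfl⟩
  have hD1 : D ≠ ⊤ := by simpa using hDt 1
  refine Frob.not_frob_of_isSimpleGroup (stabilizer T D) ⟨fun h => ?_, fun h => ?_, fun t ht => ?_⟩
  · have : (⟨a, ha⟩ : T) ∈ stabilizer T D := smul_eq_of_fix (a := a) fun y hy => hDa hy a rfl
    rw [h, mem_bot] at this
    exact ha1 (congrArg Subtype.val this)
  · refine hD1 (hirr D hD.1 (fun t ht w hw => ?_) fun c hc w hw => hD.smul_mem hc hw)
    rw [hfix D hD hD1 t ht (h ▸ mem_top _ : (⟨t, ht⟩ : T) ∈ stabilizer T D) w hw]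
    exact hw
  · refine eq_bot_iff.2 ?_
    rintro s ⟨hs, hs'⟩
    have h4 : t⁻¹ * s * t ∈ stabilizer T D := by
      simpa using mem_pointwise_smul_iff_inv_smul_mem.1 hs'
    have hinj : Function.Injective fun y : D × D => (y.1 : V) + (t : H) • (y.2 : V) := by
      rintro ⟨y, z⟩ ⟨y', z'⟩ e
      have e1 : (y : V) - y' = (t : H) • ((z' : V) - z) := by
        rw [smul_sub, sub_eq_sub_iff_add_eq_add, add_comm _ (y' : V)]
        exact e
      have e2 := hD.eq_zero (hD.smul (hTC t.2)) (Ne.symm ht) (sub_mem y.2 y'.2)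
        (e1 ▸ AddSubgroup.smul_mem_pointwise_smul _ _ _ (sub_mem z'.2 z.2))
      rw [e2, eq_comm, smul_eq_zero_iff_eq] at e1
      exact Prod.ext (Subtype.ext (sub_eq_zero.1 e2)) (Subtype.ext (sub_eq_zero.1 e1).symm)
    refine mem_bot.2 (Subtype.ext (FaithfulSMul.eq_of_smul_eq_smul (α := V) fun v => ?_))
    obtain ⟨⟨y, z⟩, rfl⟩ := (hinj.bijective_of_nat_card_le hcard).2 v
    have h5 := hfix D hD hD1 _ (t⁻¹ * s * t).2 h4 z z.2
    rw [coe_mul, coe_mul, mul_smul, mul_smul, coe_inv, inv_smul_eq_iff] at h5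
    simp only [smul_add, hfix D hD hD1 _ s.2 hs y y.2, h5, coe_one, one_smul]

end XP

end CfsgLib.XPrim
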